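import Mathlib
import Cfsg.Agent.H645.FT.Defs

/-!
# Odd automorphisms fixing an element can be moved to centric subgroups

Lemma C1 of the plan for the blocks with a defect group having a cyclic subgroup of index at most four.
-/

set_option autoImplicit false

namespace Cfsg.Agent.H934.FTC1

open Cfsg Cfsg.FusionSystem Cfsg.Agent.H645.FT Cfsg.Agent.H802

variable {Ω : Type*} [Group Ω] {S : Subgroup Ω}

theorem isConjElt_hom {F : FusionSystem S} {u : Ω} {P : Subgroup Ω} {t : P}
    (h : F.IsConjElt u t) {φ : P →* Ω} (hφ : φ ∈ F.Hom P) : F.IsConjElt u (φ t) := by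
  obtain ⟨ψ, hψ, he⟩ := h
  have hmaps : ∀ x : Subgroup.zpowers u, ψ x ∈ P := by
    rintro ⟨x, n, rfl⟩
    have h1 : (⟨u ^ n, n, rfl⟩ : Subgroup.zpowers u) = ⟨u, Subgroup.mem_zpowers u⟩ ^ n :=
      Subtype.ext (by simp)
    have h2 : ψ (⟨u ^ n, n, rfl⟩ : Subgroup.zpowers u) = (t : Ω) ^ n := by
      rw [h1, map_zpow, he]
    exact h2 ▸ P.zpow_mem t.2 n
  refine ⟨_, F.comp_mem hψ hφ hmaps, ?_⟩
  show φ ⟨ψ ⟨u, _⟩, _⟩ = φ t
  congr 1
  exact Subtype.ext he

/-- The extension on the subgroup generated by `Q` and `C_S(Q)`. -/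
theorem exists_extend_aux [Finite S] {F : FusionSystem S} {Q : Subgroup Ω}
    (hQS : Q ≤ S) (hnc : ¬ centralizerIn S Q ≤ Q) {α : MulAut Q}
    (hα : α ∈ F.autGroup Q) {N : Subgroup Ω} (hQN : Q ≤ N) (hCN : centralizerIn S Q ≤ N)
    {ψ : N →* Ω} (hψ : ψ ∈ F.Hom N)
    (hψQ : ∀ (x : Ω) (hx : x ∈ Q), ψ ⟨x, hQN hx⟩ = (α ⟨x, hx⟩ : Q)) :
    ∃ (R : Subgroup Ω) (hQR : Q ≤ R), R ≤ S ∧ Nat.card Q < Nat.card R ∧ ∃ β ∈ F.autGroup R,
      ∀ x : Q, β (Subgroup.inclusion hQR x) = Subgroup.inclusion hQR (α x) := by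
  have hfinQ : Finite Q := finite_of_le hQS
  have hα' := (mem_autGroup_iff F hQS α).1 hα
  have hr : (Q.subtype.comp α.toMonoidHom).range = Q :=
    range_eq_of_mapsTo hα' (fun x => (α x).2)
  have hRN : Q ⊔ centralizerIn S Q ≤ N := sup_le hQN hCN
  have hRS : Q ⊔ centralizerIn S Q ≤ S := sup_le hQS inf_le_left
  have hQR : Q ≤ Q ⊔ centralizerIn S Q := le_sup_left
  have hCR : centralizerIn S Q ≤ Q ⊔ centralizerIn S Q := le_sup_right
  have hfinR : Finite (Q ⊔ centralizerIn S Q : Subgroup Ω) := finite_of_le hRS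
  have hcard : Nat.card Q < Nat.card (Q ⊔ centralizerIn S Q : Subgroup Ω) := by
    have hlt : Q < Q ⊔ centralizerIn S Q :=
      lt_of_le_of_ne hQR fun heq => hnc (by
        intro x hx
        have := hCR hx
        rwa [← heq] at this)
    by_contra hle
    exact hlt.ne (Subgroup.eq_of_le_of_card_ge hQR (not_lt.1 hle))
  have hmaps : Q ⊔ centralizerIn S Q ≤ ((Q ⊔ centralizerIn S Q).comap ψ).map N.subtype := by
    refine sup_le ?_ ?_
    · intro x hx
      refine ⟨⟨x, hQN hx⟩, ?_, rfl⟩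
      have h1 : ψ ⟨x, hQN hx⟩ ∈ Q ⊔ centralizerIn S Q := by
        rw [hψQ x hx]
        exact hQR (α ⟨x, hx⟩).2
      exact h1
    · intro x hx
      refine ⟨⟨x, hCN hx⟩, ?_, rfl⟩
      have h1 : ψ ⟨x, hCN hx⟩ ∈ centralizerIn S Q :=
        apply_mem_centralizerIn hψ hQN hr (fun x hx => hψQ x hx) ⟨x, hCN hx⟩ hx.2
      exact hCR h1
  have hres := restrict_mem hψ hRN
  have hmaps' : ∀ x : (Q ⊔ centralizerIn S Q : Subgroup Ω),
      (ψ.comp (Subgroup.inclusion hRN)) x ∈ Q ⊔ centralizerIn S Q := by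
    rintro ⟨x, hx⟩
    obtain ⟨y, hy, hyx⟩ := hmaps hx
    have : y = ⟨x, hRN hx⟩ := Subtype.ext hyx
    rw [this] at hy
    exact hy
  obtain ⟨β, hβ, hβe⟩ := exists_aut hres (range_eq_of_mapsTo hres hmaps')
  refine ⟨_, hQR, hRS, hcard, β, hβ, fun x => ?_⟩
  apply Subtype.ext
  rw [hβe]
  exact hψQ x x.2

/-- If a receptive subgroup is not centric, every automorphism in the system extends to an
automorphism of a larger subgroup. -/
theorem exists_extend [Finite S] {F : FusionSystem S} {Q : Subgroup Ω}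
    (hQ : F.IsReceptive Q) (hnc : ¬ centralizerIn S Q ≤ Q) {α : MulAut Q}
    (hα : α ∈ F.autGroup Q) :
    ∃ (R : Subgroup Ω) (hQR : Q ≤ R), R ≤ S ∧ Nat.card Q < Nat.card R ∧ ∃ β ∈ F.autGroup R,
      ∀ x : Q, β (Subgroup.inclusion hQR x) = Subgroup.inclusion hQR (α x) := by
  have hQS := hQ.1
  have hfinQ : Finite Q := finite_of_le hQS
  have hα' := (mem_autGroup_iff F hQS α).1 hα
  have hr : (Q.subtype.comp α.toMonoidHom).range = Q :=
    range_eq_of_mapsTo hα' (fun x => (α x).2)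
  obtain ⟨ψ, hψ, hψe⟩ := hQ.2 Q _ hα' hr
  exact exists_extend_aux hQS hnc hα (le_extender hQS (hom_apply_mem hα'))
    (centralizerIn_le_extender S Q _) hψ (fun x hx => hψe x hx _)

theorem exists_centric [Finite S] (hS : IsPGroup 2 S)
    {F : FusionSystem S} (hF : F.IsSaturated 2) {u : Ω} {E : Subgroup Ω} (hE : E ≤ S)
    {t : E} (hut : F.IsConjElt u t) {α : MulAut E} (hα : α ∈ F.autGroup E)
    (hodd : ¬ 2 ∣ orderOf α) (hfix : α t = t) (hα1 : α ≠ 1) :
    ∃ (E' : Subgroup Ω) (t' : E') (α' : MulAut E'), F.IsFullyNormalized E' ∧ F.IsCentric E' ∧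
      F.IsConjElt u t' ∧ α' ∈ F.autGroup E' ∧ ¬ 2 ∣ orderOf α' ∧ α' t' = t' ∧ α' ≠ 1 := by
  have : Fact (Nat.Prime 2) := ⟨Nat.prime_two⟩
  have main : ∀ n : ℕ, ∀ E : Subgroup Ω, Nat.card S - Nat.card E = n → E ≤ S → ∀ (t : E),
      F.IsConjElt u t → ∀ α ∈ F.autGroup E, ¬ 2 ∣ orderOf α → α t = t → α ≠ 1 →
      ∃ (E' : Subgroup Ω) (t' : E') (α' : MulAut E'), F.IsFullyNormalized E' ∧ F.IsCentric E' ∧
        F.IsConjElt u t' ∧ α' ∈ F.autGroup E' ∧ ¬ 2 ∣ orderOf α' ∧ α' t' = t' ∧ α' ≠ 1 := by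
    intro n
    induction n using Nat.strong_induction_on with
    | _ n ih =>
      intro E hn hE t hut α hα hodd hfix hα1
      obtain ⟨Q, ⟨φ, hφ, hφQ⟩, hQn⟩ := exists_isFullyNormalized hS hF hE
      have hcardEQ : Nat.card E = Nat.card Q := isConj_card_eq ⟨φ, hφ, hφQ⟩
      set e := isoOf φ (F.injective_of_mem hφ) hφQ with he
      set α₁ := MulAut.congr e α with hα₁
      have h1 : α₁ ∈ F.autGroup Q := congr_mem_autGroup hφ hφQ hα
      have h2 : orderOf α₁ = orderOf α := (MulAut.congr e).orderOf_eq α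
      have h3 : α₁ (e t) = e t := by
        show e (α (e.symm (e t))) = e t
        rw [e.symm_apply_apply, hfix]
      have h4 : α₁ ≠ 1 := by
        intro h
        apply hα1
        apply (MulAut.congr e).injective
        rw [map_one]
        exact h
      have h5 : F.IsConjElt u (e t : Q) := isConjElt_hom hut hφ
      rw [← h2] at hodd
      by_cases hc : centralizerIn S Q ≤ Q
      · exact ⟨Q, e t, α₁, hQn, isCentric_of_isFullyCentralized
          (isFullyCentralized_of_isFullyNormalized hS hF hQn) hc, h5, h1, hodd, h3, h4⟩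
      · obtain ⟨R, hQR, hRS, hcard, β, hβ, hβe⟩ :=
          exists_extend (isReceptive_of_isFullyNormalized hS hF hQn) hc h1
        have hfinR : Finite R := finite_of_le hRS
        have hfinA : Finite (MulAut R) := inferInstance
        have hRcard : Nat.card R ≤ Nat.card S := Subgroup.card_le_of_le hRS
        obtain ⟨k, m, hm, hkm⟩ := Nat.exists_eq_two_pow_mul_odd (orderOf_pos β).ne'
        have hpow : ∀ (j : ℕ) (x : Q), (β ^ j) (Subgroup.inclusion hQR x) =
            Subgroup.inclusion hQR ((α₁ ^ j) x) := by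
          intro j
          induction j with
          | zero => intro x; rfl
          | succ j ihj =>
            intro x
            rw [pow_succ, pow_succ, MulAut.mul_apply, MulAut.mul_apply, hβe, ihj]
        have hord : orderOf (β ^ 2 ^ k) = m := by
          rw [orderOf_pow_of_dvd (by positivity) (by rw [hkm]; exact Dvd.intro m rfl), hkm]
          exact Nat.mul_div_cancel_left m (by positivity)
        refine ih (Nat.card S - Nat.card R) (by omega) R rfl hRS
          (Subgroup.inclusion hQR (e t)) h5 (β ^ 2 ^ k) (Subgroup.pow_mem _ hβ _) ?_ ?_ ?_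
        · rw [hord]
          exact fun h => (Nat.not_even_iff_odd.2 hm) (even_iff_two_dvd.2 h)
        · have hfixpow : ∀ j : ℕ, (α₁ ^ j) (e t) = e t := by
            intro j
            induction j with
            | zero => rfl
            | succ j ihj => rw [pow_succ, MulAut.mul_apply, h3, ihj]
          rw [hpow, hfixpow]
        · intro hone
          have h6 : α₁ ^ 2 ^ k = 1 := by
            apply MulEquiv.ext
            intro x
            have h7 := hpow (2 ^ k) x
            rw [hone] at h7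
            exact (Subgroup.inclusion_injective hQR h7).symm
          have h8 : orderOf α₁ ∣ 2 ^ k := orderOf_dvd_of_pow_eq_one h6
          obtain ⟨j, -, hj⟩ := (Nat.dvd_prime_pow Nat.prime_two).1 h8
          rcases Nat.eq_zero_or_pos j with hj0 | hj0
          · rw [hj0, pow_zero, orderOf_eq_one_iff] at hj
            exact h4 hj
          · exact hodd (hj ▸ dvd_pow_self 2 hj0.ne')
  exact main _ E rfl hE t hut α hα hodd hfix hα1

end Cfsg.Agent.H934.FTC1
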