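import Mathlib
import Cfsg.Agent.H645.FT.Defs

/-!
# Invariant sets: it is enough to test automorphisms of odd order

Lemma D1 of the plan for the blocks with a defect group having a cyclic subgroup of index at most four.
-/

set_option autoImplicit false

namespace Cfsg.Agent.H934.FTD1

open Cfsg Cfsg.FusionSystem Cfsg.Agent.H645.FT Cfsg.Agent.H802 Cfsg.Agent.H617.FusInv

/-- A subgroup containing a Sylow 2-subgroup and all elements of odd order is everything. -/
theorem eq_top_of_sylow_two {A : Type*} [Group A] [Finite A] (H : Subgroup A) (R : Sylow 2 A)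
    (hR : (R : Subgroup A) ≤ H) (hodd : ∀ a : A, ¬ 2 ∣ orderOf a → a ∈ H) : H = ⊤ := by
  rw [← Subgroup.index_eq_one]
  by_contra hne
  obtain ⟨r, hr, hrd⟩ := Nat.exists_prime_and_dvd hne
  have : Fact r.Prime := ⟨hr⟩
  have : Fact (Nat.Prime 2) := ⟨Nat.prime_two⟩
  by_cases h2 : r = 2
  · subst h2
    exact R.not_dvd_index (dvd_trans hrd (Subgroup.index_dvd_of_le hR))
  · obtain ⟨P⟩ : Nonempty (Sylow r A) := inferInstance
    have hP : (P : Subgroup A) ≤ H := by
      intro a ha
      refine hodd a fun h => ?_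
      obtain ⟨k, hk⟩ := P.isPGroup' ⟨a, ha⟩
      have hk' : a ^ r ^ k = 1 := by
        have := congrArg Subtype.val hk
        simpa using this
      have h3 : 2 ∣ r ^ k := dvd_trans h (orderOf_dvd_of_pow_eq_one hk')
      have h4 : 2 ∣ r := Nat.prime_two.dvd_of_dvd_pow h3
      exact h2 ((Nat.prime_dvd_prime_iff_eq Nat.prime_two hr).1 h4).symm
    exact P.not_dvd_index (dvd_trans hrd (Subgroup.index_dvd_of_le hP))

theorem mem_iff {Ω : Type*} [Group Ω] {S : Subgroup Ω} [Finite S] (hS : IsPGroup 2 S)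
    {F : FusionSystem S} (hF : F.IsSaturated 2) (X : Set Ω)
    (hX : ∀ s ∈ S, ∀ x ∈ S, x ∈ X → s * x * s⁻¹ ∈ X)
    (h : ∀ E : Subgroup Ω, F.IsFullyNormalized E → F.IsCentric E → ∀ α ∈ F.autGroup E,
      ¬ 2 ∣ orderOf α → ∀ x : E, (x : Ω) ∈ X → ((α x : E) : Ω) ∈ X)
    {x y : Ω} (hxy : F.IsConjElt x y) : x ∈ X ↔ y ∈ X := by
  have : Fact (Nat.Prime 2) := ⟨Nat.prime_two⟩
  refine mem_iff_of_isConjElt hS hF X (fun Q hQ hQc α hα => ?_) hxy
  have hfinQ : Finite Q := finite_of_le hQ.1
  have hfinA : Finite (MulAut Q) := inferInstance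
  let H : Subgroup (F.autGroup Q) :=
    { carrier := {β | ∀ x : Q, (x : Ω) ∈ X ↔ (((β : MulAut Q) x : Q) : Ω) ∈ X}
      mul_mem' := by
        intro a b ha hb x
        exact (hb x).trans (ha _)
      one_mem' := fun x => Iff.rfl
      inv_mem' := by
        intro a ha x
        have h1 := ha (((a⁻¹ : F.autGroup Q) : MulAut Q) x)
        have h2 : (a : MulAut Q) (((a⁻¹ : F.autGroup Q) : MulAut Q) x) = x := by
          rw [Subgroup.coe_inv]
          exact MulEquiv.apply_symm_apply (a : MulAut Q) x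
        rw [h2] at h1
        exact h1.symm }
  obtain ⟨-, R, hR⟩ := isFullyAutomized_of_isFullyNormalized hS hF hQ
  have hRH : (R : Subgroup (F.autGroup Q)) ≤ H := by
    rw [hR]
    intro β hβ x
    obtain ⟨g, hg, hgβ⟩ := (mem_autInducedBy_iff S Q _).1 (Subgroup.mem_subgroupOf.1 hβ)
    refine mem_iff_of_maps (fun x hx => ?_) x
    rw [hgβ]
    exact hX g hg x (hQ.1 x.2) hx
  have htop : H = ⊤ := by
    refine eq_top_of_sylow_two H R hRH fun β hβ => ?_
    intro x
    refine mem_iff_of_maps (fun x hx => ?_) x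
    exact h Q hQ hQc β β.2 (by rwa [Subgroup.orderOf_coe]) x hx
  have hmem : (⟨α, hα⟩ : F.autGroup Q) ∈ H := by
    rw [htop]
    exact Subgroup.mem_top _
  exact hmem

end Cfsg.Agent.H934.FTD1
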